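import Cfsg.Agent.S0336
import Cfsg.Agent.Lib.HallHigman
import Cfsg.Agent.Lib.SolvableMinNormal

/-!
# Hall subgroups of order prime to 3 in groups with Sylow 2-subgroups of order 8 (helper14)

`H` of order prime to 3, `Q` an elementary abelian Sylow 2-subgroup of order 8 of `H` with `C(Q) = Q` and `|N(Q)|`
dividing 56, all `r`-subgroups (`r ≥ 5`) cyclic: `Q` is normal in `H` or has a normal complement.
-/

set_option autoImplicit false

namespace Cfsg.Agent.H14.HallEight

open Subgroup Cfsg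
open scoped commutatorElement

universe u

/-- A group of order prime to 3 and not divisible by 16 is solvable. -/
theorem solvable_aux (n : ℕ) : ∀ (H : Type u) [Group H] [Finite H], Nat.card H = n → ¬ 3 ∣ Nat.card H →
    ¬ 16 ∣ Nat.card H → Group.IsSolvable H := by
  induction n using Nat.strong_induction_on with
  | _ n ih =>
    intro H _ _ hn h3 h16
    by_cases hnt : Nontrivial H
    swap
    · have : Subsingleton H := not_nontrivial_iff_subsingleton.1 hnt
      infer_instance
    by_cases hs : IsSimpleGroup H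
    · by_cases hc : ∃ a b : H, a * b ≠ b * a
      · exfalso
        obtain ⟨-, m, hm, hcard⟩ := S0336.result hc h3
        apply h16
        rw [hcard]
        refine (Dvd.dvd.mul_right ?_ _).mul_right _
        rw [← pow_mul, show (16 : ℕ) = 2 ^ 4 by norm_num]
        exact pow_dvd_pow 2 (by omega)
      · push Not at hc
        let _ : CommGroup H := { (inferInstance : Group H) with mul_comm := hc }
        infer_instance
    · obtain ⟨N, hN, hb, ht⟩ : ∃ N : Subgroup H, N.Normal ∧ N ≠ ⊥ ∧ N ≠ ⊤ := by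
        by_contra hcon
        push Not at hcon
        exact hs ⟨fun N hN => or_iff_not_imp_left.2 (hcon N hN)⟩
      have h1 := N.card_mul_index
      have hN1 : 1 < Nat.card N := one_lt_card_iff_ne_bot N |>.2 hb
      have hN2 : 1 < N.index := by
        have := N.index_ne_zero_of_finite
        have : N.index ≠ 1 := fun h => ht (index_eq_one.1 h)
        omega
      have hcN : Nat.card N < n := by
        rw [← hn, ← h1]
        nlinarith
      have hcQ : Nat.card (H ⧸ N) < n := by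
        rw [← index_eq_card, ← hn, ← h1]
        nlinarith
      have s1 := ih _ hcN N rfl (fun h => h3 (h.trans (card_subgroup_dvd_card N)))
        (fun h => h16 (h.trans (card_subgroup_dvd_card N)))
      have hdq : Nat.card (H ⧸ N) ∣ Nat.card H := by
        rw [← index_eq_card]
        exact index_dvd_card N
      have s2 := ih _ hcQ (H ⧸ N) rfl (fun h => h3 (h.trans hdq)) (fun h => h16 (h.trans hdq))
      exact Group.isSolvable_of_ker_le_range N.subtype (QuotientGroup.mk' N) (by simp)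

theorem solvable {H : Type u} [Group H] [Finite H] (h3 : ¬ 3 ∣ Nat.card H) (h16 : ¬ 16 ∣ Nat.card H) :
    Group.IsSolvable H := solvable_aux _ H rfl h3 h16

theorem aut_comm {A : Type*} [Group A] [IsCyclic A] (f g : MulAut A) : f * g = g * f := by
  obtain ⟨x, hx⟩ := IsCyclic.exists_generator (α := A)
  obtain ⟨m, hm⟩ := mem_zpowers_iff.1 (hx (f x))
  obtain ⟨n, hn⟩ := mem_zpowers_iff.1 (hx (g x))
  ext y
  obtain ⟨k, rfl⟩ := mem_zpowers_iff.1 (hx y)
  simp only [MulAut.mul_apply, map_zpow, ← hm, ← hn]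
  rw [← zpow_mul, ← zpow_mul, ← zpow_mul, ← zpow_mul]
  congr 1
  ring

/-- conjugation on a cyclic normal subgroup is commutative -/
theorem commutator_le_centralizer {H : Type*} [Group H] (N : Subgroup H) [N.Normal] (hN : IsCyclic N) :
    commutator H ≤ centralizer (N : Set H) := by
  rw [_root_.commutator_def, commutator_le]
  intro a _ b _
  rw [mem_centralizer_iff]
  intro x hx
  have key : (MulAut.conjNormal ⁅a, b⁆ : MulAut N) = 1 := by
    rw [map_commutatorElement, commutatorElement_eq_one_iff_mul_comm]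
    exact aut_comm _ _
  have h1 := congrArg Subtype.val (DFunLike.congr_fun key (⟨x, hx⟩ : N))
  rw [MulAut.conjNormal_apply] at h1
  have h2 : ⁅a, b⁆ * x * ⁅a, b⁆⁻¹ = x := h1
  have h3 := mul_inv_eq_iff_eq_mul.1 h2
  exact h3.symm

/-- if the commutator subgroup contains `Q`, then `Q` is normal. -/
theorem normal_of_le_commutator {H : Type u} [Group H] [Finite H] (Q : Sylow 2 H)
    (hQc : ∀ a ∈ (Q : Subgroup H), ∀ b ∈ (Q : Subgroup H), a * b = b * a)
    (hC : centralizer ((Q : Subgroup H) : Set H) ≤ Q) (hsol : Group.IsSolvable H)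
    (hcyc : ∀ r : ℕ, r.Prime → r ≠ 2 → ∀ R : Subgroup H, IsPGroup r R → IsCyclic R)
    (hcomm : (Q : Subgroup H) ≤ commutator H) : (Q : Subgroup H).Normal := by
  have hO : pPrimeCore 2 H = ⊥ := by
    by_contra hne
    have hnt : Nontrivial (pPrimeCore 2 H) := (nontrivial_iff_ne_bot _).2 hne
    obtain ⟨r, hr, N, hchar, -, hrN, hN⟩ := Lib.SolvableMinNormal.exists_characteristic_pgroup (G := pPrimeCore 2 H)
    have hNn : (N.map (pPrimeCore 2 H).subtype).Normal := inferInstance
    have hNb : N.map (pPrimeCore 2 H).subtype ≠ ⊥ := fun h =>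
      hN ((map_eq_bot_iff_of_injective _ (subtype_injective _)).1 h)
    have hodd : ¬ 2 ∣ Nat.card (pPrimeCore 2 H) := fun h => by
      have h1 := Lib.HallHigman.pPrimeCore_coprime (G := H) 2
      exact absurd (Nat.Coprime.symm h1) ((Nat.Prime.dvd_iff_not_coprime Nat.prime_two).1 h)
    have hr2 : r ≠ 2 := by
      rintro rfl
      have : Fact (Nat.Prime 2) := ⟨Nat.prime_two⟩
      obtain ⟨k, hk⟩ := IsPGroup.iff_card.1 hrN
      have h1 : Nat.card N ≠ 1 := fun h => hN (card_eq_one.1 h)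
      have hk0 : k ≠ 0 := by
        rintro rfl
        exact h1 hk
      exact hodd ((dvd_pow_self 2 hk0).trans (hk ▸ card_subgroup_dvd_card N))
    have hc := hcyc r hr hr2 _ (hrN.map (pPrimeCore 2 H).subtype)
    have h1 := hcomm.trans (commutator_le_centralizer _ hc)
    have h2 : N.map (pPrimeCore 2 H).subtype ≤ (Q : Subgroup H) := (le_centralizer_iff.1 h1).trans hC
    have h3 : IsPGroup 2 (N.map (pPrimeCore 2 H).subtype) := Q.2.to_le h2
    apply hNb
    have : Fact (Nat.Prime 2) := ⟨Nat.prime_two⟩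
    have : Fact r.Prime := ⟨hr⟩
    obtain ⟨k, hk⟩ := IsPGroup.iff_card.1 h3
    obtain ⟨l, hl⟩ := IsPGroup.iff_card.1 (hrN.map (pPrimeCore 2 H).subtype)
    rw [← card_eq_one]
    by_contra h4
    have hl0 : l ≠ 0 := by
      rintro rfl
      exact h4 hl
    have h5 : r ∣ 2 ^ k := hk ▸ hl ▸ dvd_pow_self r hl0
    exact hr2 ((Nat.prime_dvd_prime_iff_eq hr Nat.prime_two).1 (hr.dvd_of_dvd_pow h5))
  have : Fact (Nat.Prime 2) := ⟨Nat.prime_two⟩
  have h1 := Lib.HallHigman.centralizer_pCore_le_of_solvable (G := H) 2 hO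
  have h2 : pCore 2 H ≤ (Q : Subgroup H) := Lib.HallHigman.pCore_le_sylow 2 Q
  have h3 : (Q : Subgroup H) ≤ centralizer (pCore 2 H : Set H) := by
    intro a ha
    rw [mem_centralizer_iff]
    intro b hb
    exact hQc b (h2 hb) a ha
  have h4 : (Q : Subgroup H) = pCore 2 H := le_antisymm (h3.trans h1) h2
  rw [h4]
  infer_instance

/-- a fixed point free element of the normalizer -/
theorem le_commutator {H : Type*} [Group H] [Finite H] (Q : Subgroup H) {g : H}
    (hg : ∀ x ∈ Q, g * x * g⁻¹ ∈ Q) (hfix : ∀ x ∈ Q, g * x * g⁻¹ = x → x = 1) : Q ≤ commutator H := by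
  let f : Q → Q := fun x => ⟨g * x * g⁻¹ * x⁻¹, mul_mem (hg x x.2) (inv_mem x.2)⟩
  have hf : Function.Injective f := by
    intro x y hxy
    have h1 : g * (x : H) * g⁻¹ * (x : H)⁻¹ = g * y * g⁻¹ * (y : H)⁻¹ := congrArg Subtype.val hxy
    have h2 : g * ((y : H)⁻¹ * x) * g⁻¹ = (y : H)⁻¹ * x := by
      have e1 : g * ((y : H)⁻¹ * x) * g⁻¹ = (g * y * g⁻¹)⁻¹ * (g * x * g⁻¹) := by group
      have e2 : g * (x : H) * g⁻¹ = g * y * g⁻¹ * (y : H)⁻¹ * x := by rw [← h1]; group
      rw [e1, e2]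
      group
    have h3 := hfix _ (mul_mem (inv_mem y.2) x.2) h2
    exact Subtype.ext (inv_mul_eq_one.1 h3).symm
  have hs := Finite.surjective_of_injective hf
  intro x hx
  obtain ⟨y, hy⟩ := hs ⟨x, hx⟩
  have : x = ⁅g, (y : H)⁆ := (congrArg Subtype.val hy).symm
  rw [this]
  exact commutator_mem_commutator (mem_top _) (mem_top _)

/-- an element of order 7 normalizing a group `Q` of order 8 and fixing `x ≠ 1` of `Q` centralizes `Q` -/
theorem fixed_of_seven {H : Type*} [Group H] [Finite H] (Q : Subgroup H) (hQ8 : Nat.card Q = 8)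
    (g : normalizer (Q : Set H)) (hg : g ^ 7 = 1) {x : H} (hx : x ∈ Q) (hx1 : x ≠ 1)
    (hgx : (g : H) * x * (g : H)⁻¹ = x) : ∀ y ∈ Q, (g : H) * y * (g : H)⁻¹ = y := by
  have : Fact (Nat.Prime 7) := ⟨by norm_num⟩
  let ψ : MulAut Q := Q.normalizerMonoidHom g
  have hψ : ∀ y : Q, ((ψ y : Q) : H) = (g : H) * y * (g : H)⁻¹ := fun y => rfl
  have hψ7 : ψ ^ 7 = 1 := by
    show (Q.normalizerMonoidHom g) ^ 7 = 1
    rw [← map_pow, hg, map_one]
  have hp : IsPGroup 7 (zpowers ψ) := by
    intro y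
    obtain ⟨k, hk⟩ := mem_zpowers_iff.1 y.2
    refine ⟨1, Subtype.ext ?_⟩
    show (y : MulAut Q) ^ 7 ^ 1 = 1
    rw [← hk, pow_one, ← zpow_natCast, ← zpow_mul, mul_comm, zpow_mul, zpow_natCast, hψ7, one_zpow]
  have h1 := hp.card_modEq_card_fixedPoints Q
  rw [hQ8] at h1
  have hmem : ∀ y : Q, y ∈ MulAction.fixedPoints (zpowers ψ) Q ↔ ψ y = y := by
    intro y
    rw [MulAction.mem_fixedPoints]
    constructor
    · intro h
      exact h ⟨ψ, mem_zpowers ψ⟩
    · rintro h ⟨φ, hφ⟩
      have h2 : zpowers ψ ≤ MulAction.stabilizer (MulAut Q) y := by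
        rw [zpowers_le, MulAction.mem_stabilizer_iff]
        exact h
      exact MulAction.mem_stabilizer_iff.1 (h2 hφ)
  have h1m : (1 : Q) ∈ MulAction.fixedPoints (zpowers ψ) Q := (hmem 1).2 (map_one ψ)
  have hxm : (⟨x, hx⟩ : Q) ∈ MulAction.fixedPoints (zpowers ψ) Q := (hmem _).2 (Subtype.ext (by rw [hψ]; exact hgx))
  have h2 : 2 ≤ Nat.card (MulAction.fixedPoints (zpowers ψ) Q) := by
    have : Nontrivial (MulAction.fixedPoints (zpowers ψ) Q) :=
      ⟨⟨⟨1, h1m⟩, ⟨_, hxm⟩, fun h => hx1 (congrArg Subtype.val (congrArg Subtype.val h)).symm⟩⟩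
    exact Finite.one_lt_card
  have h3 : Nat.card (MulAction.fixedPoints (zpowers ψ) Q) ≤ 8 := by
    rw [← hQ8]
    exact Nat.card_le_card_of_injective _ Subtype.val_injective
  have h4 : Nat.card (MulAction.fixedPoints (zpowers ψ) Q) = 8 := by
    unfold Nat.ModEq at h1
    omega
  have h5 : MulAction.fixedPoints (zpowers ψ) Q = Set.univ := by
    rw [Set.eq_univ_iff_ncard, hQ8, ← h4]
    rfl
  intro y hy
  have h6 : (⟨y, hy⟩ : Q) ∈ MulAction.fixedPoints (zpowers ψ) Q := h5 ▸ Set.mem_univ _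
  have h7 := congrArg Subtype.val ((hmem _).1 h6)
  rwa [hψ] at h7

/-- **The dichotomy.** -/
theorem dichotomy {H : Type u} [Group H] [Finite H] (Q : Sylow 2 H) (hQ8 : Nat.card Q = 8)
    (hQs : ∀ x ∈ Q, x * x = 1) (hC : centralizer ((Q : Subgroup H) : Set H) ≤ Q)
    (hN : Nat.card (normalizer ((Q : Subgroup H) : Set H)) ∣ 168) (h3 : ¬ 3 ∣ Nat.card H)
    (hcyc : ∀ r : ℕ, r.Prime → 5 ≤ r → ∀ R : Subgroup H, IsPGroup r R → IsCyclic R) :
    (Q : Subgroup H).Normal ∨ ∃ N : Subgroup H, N.Normal ∧ IsComplement' N (Q : Subgroup H) := by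
  have hf2 : Fact (Nat.Prime 2) := ⟨Nat.prime_two⟩
  have hQc : ∀ a ∈ (Q : Subgroup H), ∀ b ∈ (Q : Subgroup H), a * b = b * a := by
    intro a ha b hb
    have h1 := hQs a ha
    have h2 := hQs b hb
    have h3 := hQs _ (mul_mem ha hb)
    calc a * b = (a * b)⁻¹ := (inv_eq_of_mul_eq_one_right h3).symm
      _ = b⁻¹ * a⁻¹ := mul_inv_rev _ _
      _ = b * a := by rw [inv_eq_of_mul_eq_one_right h1, inv_eq_of_mul_eq_one_right h2]
  have h16 : ¬ 16 ∣ Nat.card H := by
    intro h
    have h1 : 2 ^ 4 ∣ Nat.card Q := Q.pow_dvd_card_of_pow_dvd_card (by norm_num; exact h)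
    rw [hQ8] at h1
    norm_num at h1
  have hsol := solvable h3 h16
  have hcyc' : ∀ r : ℕ, r.Prime → r ≠ 2 → ∀ R : Subgroup H, IsPGroup r R → IsCyclic R := by
    intro r hr hr2 R hR
    by_cases h5 : 5 ≤ r
    · exact hcyc r hr h5 R hR
    · have hr' : r = 3 := by
        have := hr.two_le
        have h4 : r ≠ 4 := by rintro rfl; revert hr; decide
        omega
      subst hr'
      have : Fact (Nat.Prime 3) := ⟨hr⟩
      obtain ⟨k, hk⟩ := IsPGroup.iff_card.1 hR
      have hk0 : k = 0 := by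
        by_contra hk0
        exact h3 ((dvd_pow_self 3 hk0).trans (hk ▸ card_subgroup_dvd_card R))
      rw [hk0, pow_zero, card_eq_one] at hk
      rw [hk]
      infer_instance
  set Nm := normalizer ((Q : Subgroup H) : Set H) with hNm
  have hN56 : Nat.card Nm ∣ 56 := by
    have h1 : Nat.Coprime (Nat.card Nm) 3 :=
      ((Nat.Prime.coprime_iff_not_dvd Nat.prime_three).2 fun h => h3 (h.trans (card_subgroup_dvd_card Nm))).symm
    exact h1.dvd_of_dvd_mul_left (show Nat.card Nm ∣ 3 * 56 by norm_num; exact hN)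
  by_cases h7 : 7 ∣ Nat.card Nm
  · left
    have : Fact (Nat.Prime 7) := ⟨by norm_num⟩
    obtain ⟨g, hg⟩ := exists_prime_orderOf_dvd_card' (G := Nm) 7 h7
    have hgo : orderOf (g : H) = 7 := by rw [orderOf_coe, hg]
    have hgn : ∀ x ∈ (Q : Subgroup H), (g : H) * x * (g : H)⁻¹ ∈ (Q : Subgroup H) := fun x hx =>
      (mem_normalizer_iff.1 g.2 x).1 hx
    apply normal_of_le_commutator Q hQc hC hsol hcyc'
    refine le_commutator (g := (g : H)) (Q : Subgroup H) hgn (fun x hx hgx => ?_)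
    by_contra hx1
    have hall := fixed_of_seven (Q : Subgroup H) hQ8 g (by rw [← hg]; exact pow_orderOf_eq_one g) hx hx1 hgx
    have hgC : (g : H) ∈ centralizer ((Q : Subgroup H) : Set H) := by
      rw [mem_centralizer_iff]
      intro y hy
      exact (mul_inv_eq_iff_eq_mul.1 (hall y hy)).symm
    have h1 : orderOf (g : H) ∣ Nat.card Q := by
      have h2 := orderOf_dvd_natCard (⟨(g : H), hC hgC⟩ : (Q : Subgroup H))
      rwa [← orderOf_coe] at h2
    rw [hgo, hQ8] at h1
    norm_num at h1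
  · right
    have h8 : Nat.card Nm ∣ 8 := by
      have h1 : Nat.Coprime (Nat.card Nm) 7 :=
        ((Nat.Prime.coprime_iff_not_dvd (by norm_num)).2 h7).symm
      exact h1.dvd_of_dvd_mul_left (show Nat.card Nm ∣ 7 * 8 by norm_num; exact hN56)
    have hle : (Q : Subgroup H) ≤ Nm := le_normalizer
    have heq : (Q : Subgroup H) = Nm :=
      eq_of_le_of_card_ge hle (by rw [hQ8]; exact Nat.le_of_dvd (by norm_num) h8)
    have hnc : Nm ≤ centralizer ((Q : Subgroup H) : Set H) := by
      rw [← heq]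
      intro a ha
      rw [mem_centralizer_iff]
      intro b hb
      exact hQc b hb a ha
    exact ⟨_, inferInstance, MonoidHom.ker_transferSylow_isComplement' Q hnc⟩

end Cfsg.Agent.H14.HallEight
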